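import Cfsg.Agent.ConjFunctor.LocalGlobal
import Mathlib.Tactic

/-!
Control of fusion lifts from a normal subgroup to `p`-subgroups acting on it.
-/

set_option autoImplicit false

namespace CfsgLib.ConjFunctor.FusionLift

open CfsgLib.ConjFunctor CfsgLib.GroupAlperin

universe u

variable {p : ℕ} [Fact p.Prime]

/-- An element acting on `U` as a translation by elements commuting with it has a `p`-power centralising `U`. -/
theorem exists_pow_mem_centralizer {G : Type*} [Group G] {K U : Subgroup G} (hU : IsPGroup p U) [Finite G] {h : G}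
    (hh : ∀ a ∈ U, h * a * h⁻¹ * a⁻¹ ∈ U ∧ Commute h (h * a * h⁻¹ * a⁻¹)) :
    ∃ n : ℕ, h ^ p ^ n ∈ Subgroup.centralizer (U : Set G) := by
  obtain ⟨n, hn⟩ := hU.exists_card_eq
  refine ⟨n, Subgroup.mem_centralizer_iff.2 fun a ha => ?_⟩
  obtain ⟨hzU, hz⟩ := hh a ha
  set z := h * a * h⁻¹ * a⁻¹ with hzdef
  have hj : ∀ j : ℕ, h ^ j * a * (h ^ j)⁻¹ = z ^ j * a := by
    intro j
    induction j with
    | zero => group
    | succ j ih =>
      have h1 : h * a * h⁻¹ = z * a := by rw [hzdef]; group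
      calc h ^ (j + 1) * a * (h ^ (j + 1))⁻¹ = h * (h ^ j * a * (h ^ j)⁻¹) * h⁻¹ := by rw [pow_succ']; group
        _ = h * z ^ j * a * h⁻¹ := by rw [ih]; group
        _ = z ^ j * (h * a * h⁻¹) := by rw [(hz.pow_right j).eq]; group
        _ = z ^ (j + 1) * a := by rw [h1, pow_succ]; group
  have h2 : z ^ p ^ n = 1 := by
    have h3 := Subgroup.coe_pow U ⟨z, hzU⟩ (p ^ n)
    rw [← hn, pow_card_eq_one', Subgroup.coe_one] at h3
    rw [← hn]
    exact h3.symm
  have h4 := hj (p ^ n)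
  rw [h2, one_mul] at h4
  calc a * h ^ p ^ n = h ^ p ^ n * a * (h ^ p ^ n)⁻¹ * h ^ p ^ n := by rw [h4]
    _ = h ^ p ^ n * a := by group

/-- `M ∩ K` controls strong fusion in `K`. -/
def Ctrl {G : Type*} [Group G] (p : ℕ) (M K : Subgroup G) : Prop :=
  ∀ B : Subgroup G, B ≤ M ⊓ K → IsPGroup p B → ∀ k ∈ K, (∀ b ∈ B, k * b * k⁻¹ ∈ M) →
    ∃ l ∈ M ⊓ K, ∃ c ∈ K ⊓ Subgroup.centralizer (B : Set G), k = l * c

private theorem lift_aux : ∀ n, ∀ (G : Type u) [Group G] [Finite G] (K : Subgroup G) [K.Normal], Nat.card K = n →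
    (∀ g : G, ∃ j : ℕ, g ^ p ^ j ∈ K) → ∀ (M : Subgroup G) (S : Sylow p G), (S : Subgroup G) ≤ M →
    Ctrl p M K → ∀ Q : Subgroup G, Q ≤ M → IsPGroup p Q → ∀ g : G, (∀ a ∈ Q, g * a * g⁻¹ ∈ M) →
      ∃ m ∈ M, ∃ c ∈ Subgroup.centralizer (Q : Set G), g = m * c := by
  intro n
  induction n using Nat.strong_induction_on with
  | _ n ih =>
  intro G _ _ K _ hn hKp M S hSM hctl
  -- normalizers of extremal subgroups
  have hloc : ∀ U : Subgroup G, U ≤ (S : Subgroup G) → Ext p (S : Subgroup G) U →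
      ∀ u ∈ Subgroup.normalizer (U : Set G), ∃ m ∈ M, ∃ c ∈ Subgroup.centralizer (U : Set G), u = m * c := by
    intro U hUS hUe u hu
    have hU : IsPGroup p U := S.isPGroup'.to_le hUS
    by_cases hB : ∀ b ∈ U ⊓ K, ∀ k ∈ K, Commute k b
    · set N := Subgroup.normalizer (U : Set G) with hN
      set D := K ⊓ Subgroup.centralizer (U : Set G) with hD
      have hUN : ∀ x ∈ N, x ∈ Subgroup.normalizer (D : Set G) := by
        intro x hx
        refine Subgroup.mem_normalizer_fintype fun y hy => ⟨Subgroup.Normal.conj_mem inferInstance y hy.1 x, ?_⟩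
        refine Subgroup.mem_centralizer_iff.2 fun a ha => ?_
        have h1 : x⁻¹ * a * x ∈ U := by
          have := (Subgroup.mem_normalizer_iff.1 (inv_mem hx) a).1 ha
          simpa using this
        have h2 := Subgroup.mem_centralizer_iff.1 hy.2 _ h1
        calc a * (x * y * x⁻¹) = x * (x⁻¹ * a * x * y) * x⁻¹ := by group
          _ = x * (y * (x⁻¹ * a * x)) * x⁻¹ := by rw [h2]
          _ = x * y * x⁻¹ * a := by group
      have hDN : D ≤ N := inf_le_right.trans (Subgroup.centralizer_le_normalizer _)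
      haveI : (D.subgroupOf N).Normal := Subgroup.normal_subgroupOf_of_le_normalizer (fun x hx => hUN x hx)
      obtain ⟨W, hW⟩ := exists_sylow_subgroupOf (U := S) (N := N) hUe
      have hWD : (W : Subgroup N) ⊔ D.subgroupOf N = ⊤ := by
        haveI : (D.subgroupOf N).Normal := inferInstance
        have hidx : (D.subgroupOf N).index ∣ Nat.card ↥N := Subgroup.index_dvd_card _
        have hq : IsPGroup p (↥N ⧸ D.subgroupOf N) := by
          rintro ⟨x⟩
          obtain ⟨j, hj⟩ := hKp x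
          obtain ⟨i, hi⟩ := exists_pow_mem_centralizer (K := K) hU (h := (x : G) ^ p ^ j) (fun a ha => by
            have hxN := N.pow_mem x.2 (p ^ j)
            have h1 : (x : G) ^ p ^ j * a * ((x : G) ^ p ^ j)⁻¹ ∈ U := (Subgroup.mem_normalizer_iff.1 hxN a).1 ha
            have h2 := U.mul_mem h1 (U.inv_mem ha)
            refine ⟨h2, hB _ ⟨h2, ?_⟩ _ hj⟩
            rw [mul_assoc, mul_assoc, ← mul_assoc a]
            exact K.mul_mem hj (Subgroup.Normal.conj_mem inferInstance _ (K.inv_mem hj) a))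
          refine ⟨j + i, (QuotientGroup.eq_one_iff _).2 (Subgroup.mem_subgroupOf.2 ⟨?_, ?_⟩)⟩
          · rw [Subgroup.coe_pow, pow_add, pow_mul]
            exact K.pow_mem hj _
          · rw [Subgroup.coe_pow, pow_add, pow_mul]
            exact hi
        obtain ⟨r, hr⟩ := IsPGroup.iff_card.1 hq
        rw [← Subgroup.index_eq_card] at hr
        have h1 : ((W : Subgroup N) ⊔ D.subgroupOf N).index ∣ p ^ r := hr ▸ Subgroup.index_dvd_of_le le_sup_right
        have h2 : ((W : Subgroup N) ⊔ D.subgroupOf N).index ∣ (W : Subgroup N).index :=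
          Subgroup.index_dvd_of_le le_sup_left
        obtain ⟨s, -, hs⟩ := (Nat.dvd_prime_pow (Fact.out : p.Prime)).1 h1
        rcases Nat.eq_zero_or_pos s with hs0 | hs0
        · exact Subgroup.index_eq_one.1 (by rw [hs, hs0, pow_zero])
        · exact absurd ((dvd_pow_self p hs0.ne').trans (hs ▸ h2)) W.not_dvd_index
      obtain ⟨w, hw, d, hd, hwd⟩ :=
        Subgroup.mem_sup_of_normal_right.1 (hWD.ge (Subgroup.mem_top (⟨u, hu⟩ : ↥N)))
      rw [hW, Subgroup.mem_subgroupOf] at hw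
      exact ⟨w, hSM hw.1, d, (Subgroup.mem_subgroupOf.1 hd).2, (congrArg Subtype.val hwd).symm⟩
    · push Not at hB
      obtain ⟨b₀, hb₀, k₀, hk₀, hb₀k⟩ := hB
      -- `G = M K`
      have hMK : M ⊔ K = ⊤ := by
        have hq : IsPGroup p (G ⧸ K) := by
          rintro ⟨x⟩
          obtain ⟨j, hj⟩ := hKp x
          exact ⟨j, (QuotientGroup.eq_one_iff _).2 hj⟩
        obtain ⟨r, hr⟩ := IsPGroup.iff_card.1 hq
        rw [← Subgroup.index_eq_card] at hr
        have h1 : (M ⊔ K).index ∣ p ^ r := hr ▸ Subgroup.index_dvd_of_le le_sup_right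
        obtain ⟨s, -, hs⟩ := (Nat.dvd_prime_pow (Fact.out : p.Prime)).1 h1
        rcases Nat.eq_zero_or_pos s with hs0 | hs0
        · exact Subgroup.index_eq_one.1 (by rw [hs, hs0, pow_zero])
        · exact absurd ((dvd_pow_self p hs0.ne').trans
            (hs ▸ Subgroup.index_dvd_of_le (hSM.trans le_sup_left))) S.not_dvd_index
      obtain ⟨m, hm, k, hk, hmk⟩ := Subgroup.mem_sup_of_normal_right.1 (hMK.ge (Subgroup.mem_top u))
      have hkU : ∀ a ∈ U, k * a * k⁻¹ ∈ M := fun a ha => by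
        have h1 : u * a * u⁻¹ ∈ U := (Subgroup.mem_normalizer_iff.1 hu a).1 ha
        have h2 := M.mul_mem (M.mul_mem (M.inv_mem hm) (hSM (hUS h1))) hm
        rw [← hmk] at h2
        simpa [mul_assoc] using h2
      obtain ⟨l, hl, c, hc, hlc⟩ := hctl (U ⊓ K) (inf_le_inf_right _ (hUS.trans hSM)) (hU.to_le inf_le_left) k hk
        fun b hb => hkU b hb.1
      set C := K ⊓ Subgroup.centralizer ((U ⊓ K : Subgroup G) : Set G) with hC
      have hCK : C < K := lt_of_le_of_ne inf_le_left fun e => hb₀k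
        ((Subgroup.mem_centralizer_iff.1 (e.symm.le hk₀).2 b₀ hb₀).symm)
      have hUC : U ≤ Subgroup.normalizer (C : Set G) := by
        intro x hx
        refine Subgroup.mem_normalizer_fintype fun y hy => ⟨Subgroup.Normal.conj_mem inferInstance y hy.1 x, ?_⟩
        refine Subgroup.mem_centralizer_iff.2 fun a ha => ?_
        have h1 : x⁻¹ * a * x ∈ U ⊓ K := by
          refine ⟨U.mul_mem (U.mul_mem (U.inv_mem hx) ha.1) hx, ?_⟩
          simpa using Subgroup.Normal.conj_mem (inferInstance : K.Normal) a ha.2 x⁻¹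
        have h2 := Subgroup.mem_centralizer_iff.1 hy.2 _ h1
        calc a * (x * y * x⁻¹) = x * (x⁻¹ * a * x * y) * x⁻¹ := by group
          _ = x * (y * (x⁻¹ * a * x)) * x⁻¹ := by rw [h2]
          _ = x * y * x⁻¹ * a := by group
      set G' := C ⊔ U with hG'
      haveI hCn : (C.subgroupOf G').Normal :=
        Subgroup.normal_subgroupOf_of_le_normalizer (sup_le Subgroup.le_normalizer hUC)
      -- a Sylow subgroup of `G'` inside `M`
      obtain ⟨R⟩ : Nonempty (Sylow p ↥G') := inferInstance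
      have hG'p : ∀ y : ↥G', ∃ j : ℕ, y ^ p ^ j ∈ C.subgroupOf G' := by
        have htop : C.subgroupOf G' ⊔ U.subgroupOf G' = ⊤ := by
          rw [← Subgroup.subgroupOf_sup le_sup_left le_sup_right, Subgroup.subgroupOf_self]
        intro y
        obtain ⟨c', hc', a, ha, rfl⟩ := Subgroup.mem_sup_of_normal_left.1 (htop.ge (Subgroup.mem_top y))
        have hUp' : IsPGroup p (U.subgroupOf G') :=
          hU.of_equiv (Subgroup.subgroupOfEquivOfLe le_sup_right).symm
        obtain ⟨j, hj⟩ := hUp' ⟨a, ha⟩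
        refine ⟨j, (QuotientGroup.eq_one_iff _).1 ?_⟩
        rw [QuotientGroup.mk_pow, QuotientGroup.mk_mul, (QuotientGroup.eq_one_iff c').2 hc', one_mul,
          ← QuotientGroup.mk_pow]
        exact (QuotientGroup.eq_one_iff _).2 (by
          rw [show a ^ p ^ j = 1 from congrArg Subtype.val hj]; exact Subgroup.one_mem _)
      obtain ⟨S', hS'⟩ : ∃ S' : Sylow p ↥G', (S' : Subgroup ↥G') ≤ M.subgroupOf G' := by
        -- a Sylow subgroup containing `U`, moved into `M` by the control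
        obtain ⟨R, hR⟩ := (hU.of_equiv (Subgroup.subgroupOfEquivOfLe (le_sup_right : U ≤ G')).symm).exists_le_sylow
        set R₀ := (R : Subgroup ↥G').map G'.subtype with hR₀
        have hR₀p : IsPGroup p R₀ := R.isPGroup'.map _
        obtain ⟨h, -, hh⟩ := exists_conj_into (H := (⊤ : Subgroup G)) le_top S.isPGroup'
          (by rw [Subgroup.relIndex_top_right]; exact S.not_dvd_index) le_top hR₀p
        obtain ⟨m', hm', k', hk', hmk'⟩ := Subgroup.mem_sup_of_normal_right.1 (hMK.ge (Subgroup.mem_top h⁻¹))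
        have hk'R : ∀ a ∈ R₀, k' * a * k'⁻¹ ∈ M := fun a ha => by
          have h1 := hSM (hh (conj_mem_cj (g := h) ha))
          have h2 : h = k'⁻¹ * m'⁻¹ := by rw [← inv_inv h, ← hmk', mul_inv_rev]
          rw [h2] at h1
          have h3 := M.mul_mem (M.mul_mem (M.inv_mem hm') h1) hm'
          simpa [mul_assoc] using h3
        have hUR : U ≤ R₀ := fun a ha => ⟨⟨a, Subgroup.mem_sup_right ha⟩, hR ha, rfl⟩
        obtain ⟨l', hl', c', hc', hlc'⟩ := hctl (U ⊓ K) (inf_le_inf_right _ (hUS.trans hSM)) (hU.to_le inf_le_left)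
          k' hk' fun b hb => hk'R b (hUR hb.1)
        refine ⟨(⟨c', Subgroup.mem_sup_left hc'⟩ : ↥G') • R, fun y hy => ?_⟩
        rw [Sylow.coe_subgroup_smul, Subgroup.mem_pointwise_smul_iff_inv_smul_mem] at hy
        have h4 := hk'R _ ⟨_, hy, rfl⟩
        rw [hlc'] at h4
        have h5 := M.mul_mem (M.mul_mem (M.inv_mem hl'.1) h4) hl'.1
        show (y : G) ∈ M
        simpa [mul_assoc] using h5
      have hctl' : Ctrl p (M.subgroupOf G') (C.subgroupOf G') := by
        intro B hB' hBp d hd hdB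
        have hBK : (U ⊓ K) ⊔ B.map G'.subtype ≤ M ⊓ K := sup_le (inf_le_inf_right _ (hUS.trans hSM)) (by
          rintro _ ⟨b, hb, rfl⟩
          exact ⟨(hB' hb).1, (hB' hb).2.1⟩)
        have hnorm : B.map G'.subtype ≤ Subgroup.normalizer ((U ⊓ K : Subgroup G) : Set G) := by
          rintro _ ⟨b, hb, rfl⟩
          exact Subgroup.centralizer_le_normalizer _ (hB' hb).2.2
        obtain ⟨l₁, hl₁, c₁, hc₁, h1⟩ := hctl _ hBK
          ((hU.to_le inf_le_left).to_sup_of_normal_left' (hBp.map _) hnorm) (d : G) (hd : (d : G) ∈ C).1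
          (by
            intro b hb
            have h2 : (U ⊓ K) ⊔ B.map G'.subtype ≤ M.comap (MulAut.conj (d : G)).toMonoidHom := sup_le (fun a ha => by
              show (d : G) * a * (d : G)⁻¹ ∈ M
              have hda : a * (d : G) = (d : G) * a := Subgroup.mem_centralizer_iff.1 (hd : (d : G) ∈ C).2 a ha
              rw [← hda, mul_inv_cancel_right]
              exact hSM (hUS ha.1)) (by
              rintro _ ⟨b, hb, rfl⟩
              exact hdB b hb)
            exact h2 hb)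
        have hc₁C : c₁ ∈ C := ⟨hc₁.1, Subgroup.mem_centralizer_iff.2 fun a ha =>
          Subgroup.mem_centralizer_iff.1 hc₁.2 a (Subgroup.mem_sup_left ha)⟩
        have hl₁C : l₁ ∈ C := by
          rw [show l₁ = (d : G) * c₁⁻¹ by rw [h1]; group]
          exact C.mul_mem hd (C.inv_mem hc₁C)
        exact ⟨⟨l₁, Subgroup.mem_sup_left hl₁C⟩, ⟨hl₁.1, hl₁C⟩, ⟨c₁, Subgroup.mem_sup_left hc₁C⟩,
          ⟨hc₁C, Subgroup.mem_centralizer_iff.2 fun b hb => Subtype.ext
            (Subgroup.mem_centralizer_iff.1 hc₁.2 _ (Subgroup.mem_sup_right ⟨b, hb, rfl⟩))⟩, Subtype.ext h1⟩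
      have hcard : Nat.card (C.subgroupOf G') < n := by
        rw [Nat.card_congr (Subgroup.subgroupOfEquivOfLe (le_sup_left : C ≤ G')).toEquiv, ← hn]
        exact card_lt_of_lt hCK
      obtain ⟨m₁, hm₁, c₁, hc₁, h1⟩ := ih _ hcard ↥G' (C.subgroupOf G') rfl hG'p (M.subgroupOf G') S' hS' hctl'
        (U.subgroupOf G') (fun a ha => hSM (hUS ha)) (hU.of_equiv (Subgroup.subgroupOfEquivOfLe le_sup_right).symm)
        ⟨c, Subgroup.mem_sup_left hc⟩ (fun a ha => by
          have h2 := hkU a ha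
          rw [hlc] at h2
          have h3 := M.mul_mem (M.mul_mem (M.inv_mem hl.1) h2) hl.1
          show c * (a : G) * c⁻¹ ∈ M
          simpa [mul_assoc] using h3)
      refine ⟨m * l * m₁, M.mul_mem (M.mul_mem hm hl.1) hm₁, c₁, Subgroup.mem_centralizer_iff.2 fun a ha =>
        congrArg Subtype.val (Subgroup.mem_centralizer_iff.1 hc₁ ⟨a, Subgroup.mem_sup_right ha⟩ ha), ?_⟩
      have h4 : c = (m₁ : G) * c₁ := congrArg Subtype.val h1
      rw [← hmk, hlc, h4]
      group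
  -- chains
  have key : ∀ X g, CChain (S : Subgroup G) {U : Subgroup G | U ≤ (S : Subgroup G) ∧ Ext p (S : Subgroup G) U} X g →
      ∃ m ∈ M, ∃ c ∈ Subgroup.centralizer (X : Set G), g⁻¹ = m * c := by
    intro X g hch
    induction hch with
    | nil _ => exact ⟨1, M.one_mem, 1, Subgroup.one_mem _, by group⟩
    | @cons X U x y hU hx hXU _ ihc =>
      obtain ⟨m₁, hm₁, c₁, hc₁, h1⟩ := hloc U hU.1 hU.2 x⁻¹ (Subgroup.inv_mem _ hx)
      obtain ⟨m₂, hm₂, c₂, hc₂, h2⟩ := ihc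
      refine ⟨m₂ * m₁, M.mul_mem hm₂ hm₁, m₁⁻¹ * c₂ * m₁ * c₁, Subgroup.mul_mem _
        (Subgroup.mem_centralizer_iff.2 fun a ha => ?_)
        (Subgroup.centralizer_le hXU hc₁), by rw [mul_inv_rev, h1, h2]; group⟩
      have h3 : x⁻¹ * a * x = m₁ * a * m₁⁻¹ := by
        calc x⁻¹ * a * x = x⁻¹ * a * (x⁻¹)⁻¹ := by rw [inv_inv]
          _ = m₁ * (c₁ * a) * c₁⁻¹ * m₁⁻¹ := by rw [h1]; group
          _ = m₁ * a * m₁⁻¹ := by rw [← Subgroup.mem_centralizer_iff.1 hc₁ a (hXU ha)]; group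
      have h4 := Subgroup.mem_centralizer_iff.1 hc₂ _ (conj_mem_cj (g := x) ha)
      rw [h3] at h4
      calc a * (m₁⁻¹ * c₂ * m₁) = m₁⁻¹ * (m₁ * a * m₁⁻¹ * c₂) * m₁ := by group
        _ = m₁⁻¹ * (c₂ * (m₁ * a * m₁⁻¹)) * m₁ := by rw [h4]
        _ = m₁⁻¹ * c₂ * m₁ * a := by group
  intro Q hQM hQ g hg
  have hMidx : ¬ p ∣ (S : Subgroup G).relIndex M :=
    fun h => S.not_dvd_index (h.trans (Subgroup.relIndex_dvd_index_of_le hSM))
  obtain ⟨h₁, hh₁, hh₁S⟩ := exists_conj_into hSM S.isPGroup' hMidx hQM hQ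
  obtain ⟨h₂, hh₂, hh₂S⟩ := exists_conj_into hSM S.isPGroup' hMidx (X := cj Q g⁻¹)
    (by rw [← map_conj_eq_cj]; rintro _ ⟨a, ha, rfl⟩; exact hg a ha) (hQ.map _)
  obtain ⟨m, hm, c, hc, hmc⟩ := key _ _ (exists_cchain S (ext_family S) (cj Q h₁) (h₁⁻¹ * g⁻¹ * h₂) hh₁S (by
    rw [cj_cj, show h₁ * (h₁⁻¹ * g⁻¹ * h₂) = g⁻¹ * h₂ by group, ← cj_cj]
    exact hh₂S))
  refine ⟨h₂ * m * h₁⁻¹, M.mul_mem (M.mul_mem hh₂ hm) (M.inv_mem hh₁), h₁ * c * h₁⁻¹,
    Subgroup.mem_centralizer_iff.2 fun a ha => ?_, ?_⟩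
  · have h5 := Subgroup.mem_centralizer_iff.1 hc _ (conj_mem_cj (g := h₁) ha)
    calc a * (h₁ * c * h₁⁻¹) = h₁ * (h₁⁻¹ * a * h₁ * c) * h₁⁻¹ := by group
      _ = h₁ * (c * (h₁⁻¹ * a * h₁)) * h₁⁻¹ := by rw [h5]
      _ = h₁ * c * h₁⁻¹ * a := by group
  · calc g = h₂ * (h₁⁻¹ * g⁻¹ * h₂)⁻¹ * h₁⁻¹ := by group
      _ = h₂ * m * h₁⁻¹ * (h₁ * c * h₁⁻¹) := by rw [hmc]; group

/-- **Control lifts**: if `M ∩ K` controls fusion in the normal subgroup `K` with `p`-group quotient, then `M`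
controls it in `G`. -/
theorem exists_mul_of_ctrl {G : Type u} [Group G] [Finite G] (K : Subgroup G) [K.Normal]
    (hKp : ∀ g : G, ∃ j : ℕ, g ^ p ^ j ∈ K) (M : Subgroup G) (S : Sylow p G) (hSM : (S : Subgroup G) ≤ M)
    (hctl : Ctrl p M K) {Q : Subgroup G} (hQM : Q ≤ M) (hQ : IsPGroup p Q) {g : G}
    (hg : ∀ a ∈ Q, g * a * g⁻¹ ∈ M) : ∃ m ∈ M, ∃ c ∈ Subgroup.centralizer (Q : Set G), g = m * c :=
  lift_aux _ G K rfl hKp M S hSM hctl Q hQM hQ g hg

end CfsgLib.ConjFunctor.FusionLift
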