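import Cfsg.Agent.S1991
import Cfsg.Agent.S5098
import Cfsg.Agent.Fusion.Normalizer
import Cfsg.Agent.Fusion.Model
import Cfsg.Agent.ConjFunctor.KInf

/-!
The normalizer system of the lower K-infinity subgroup of `S`: it is constrained, and for `p ≥ 5`
and `Aut_F(S)` a `p`-group its focal subgroup is proper.
-/

set_option autoImplicit false

namespace CfsgLib.KInfFusion

open Cfsg.FusionSystem
open scoped commutatorElement

universe u

variable {Ω : Type u} [Group Ω] {S : Subgroup Ω} [Finite S] {p : ℕ} [Fact p.Prime]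

/-- The lower K-infinity subgroup of `S`, inside `Ω`. -/
abbrev kSub (S : Subgroup Ω) : Subgroup Ω := (Cfsg.kInfLower ↥S).map S.subtype

theorem kSub_le : kSub S ≤ S := Subgroup.map_subtype_le _

theorem normalizerIn_kSub : normalizerIn S (kSub S) = S := by
  refine inf_eq_left.2 fun g hg => ?_
  haveI := CfsgLib.KInfSeq.kInfLower_characteristic (P := ↥S)
  have h1 : (⟨g, hg⟩ : S) ∈ Subgroup.normalizer (Cfsg.kInfLower ↥S : Set S) := by
    rw [Subgroup.normalizer_eq_top]; trivial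
  exact Subgroup.le_normalizer_map S.subtype ⟨⟨g, hg⟩, h1, rfl⟩

theorem isFullyNormalized_kSub (F : Cfsg.FusionSystem S) : F.IsFullyNormalized (kSub S) :=
  ⟨kSub_le, fun Q _ => by rw [normalizerIn_kSub]; exact Subgroup.card_le_of_le inf_le_left⟩

theorem centralizer_kSub_le (hS : IsPGroup p S) : centralizerIn S (kSub S) ≤ kSub S := by
  rintro x ⟨hxS, hx⟩
  refine ⟨⟨x, hxS⟩, CfsgLib.KInfSeq.centralizer_kInfLower_le hS (Subgroup.mem_centralizer_iff.2 fun y hy =>
    Subtype.ext ?_), rfl⟩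
  exact Subgroup.mem_centralizer_iff.1 hx _ ⟨y, hy, rfl⟩

/-- `N_F(K_∞(S))` is constrained. -/
theorem isConstrained (hS : IsPGroup p S) (F : Cfsg.FusionSystem S) (hF : F.IsSaturated p)
    (N : Cfsg.FusionSystem (normalizerIn S (kSub S))) (hN : F.IsNormalizerSystem (kSub S) N) :
    N.IsConstrained p := by
  refine ⟨Cfsg.Agent.S5098.result p hS F hF _ (isFullyNormalized_kSub F) N hN, kSub S, ?_, ?_⟩
  · refine ⟨le_of_le_of_eq kSub_le (normalizerIn_kSub (S := S)).symm, fun P φ hφ => ?_⟩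
    rw [hN] at hφ
    obtain ⟨-, hP, -, ψ, hψ, hψφ, hψW⟩ := hφ
    refine ⟨ψ, ?_, hψφ, hψW⟩
    rw [hN]
    have hle : P ⊔ kSub S ⊔ kSub S ≤ P ⊔ kSub S := sup_le le_rfl le_sup_right
    refine ⟨hψ, sup_le hP (le_of_le_of_eq kSub_le (normalizerIn_kSub (S := S)).symm), fun x => ?_,
      ψ.comp (Subgroup.inclusion hle), CfsgLib.Fusion.restrict hψ hle, fun x => rfl, ?_⟩
    · rw [normalizerIn_kSub]; exact (F.le_of_mem hψ).2 x
    · refine le_antisymm ?_ ?_
      · rintro _ ⟨x, hx, rfl⟩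
        exact hψW.le ⟨Subgroup.inclusion hle x, hx, rfl⟩
      · intro y hy
        obtain ⟨x, hx, rfl⟩ := hψW.ge hy
        exact ⟨⟨x, Subgroup.mem_sup_left x.2⟩, hx, rfl⟩
  · refine ⟨le_of_le_of_eq kSub_le (normalizerIn_kSub (S := S)).symm, fun Q hQ => ?_⟩
    obtain ⟨φ, hφ, rfl⟩ := hQ
    rw [hN] at hφ
    obtain ⟨-, -, -, ψ, -, hψφ, hψW⟩ := hφ
    have hrange : φ.range = kSub S := by
      refine le_antisymm ?_ fun y hy => ?_
      · rintro _ ⟨x, rfl⟩
        rw [← hψφ]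
        exact hψW.le ⟨_, x.2, rfl⟩
      · obtain ⟨x, hx, rfl⟩ := hψW.ge hy
        exact ⟨⟨x, hx⟩, (hψφ ⟨x, hx⟩).symm.trans (congrArg ψ (Subtype.ext rfl))⟩
    rw [hrange]
    intro x hx
    exact centralizer_kSub_le hS ⟨(normalizerIn_kSub (S := S)).le hx.1, hx.2⟩

theorem autGroup_pGroup_elim {S' : Subgroup Ω} (h : S' = S) (F : Cfsg.FusionSystem S)
    (haut : IsPGroup p ↥(F.autGroup S)) {α : MulAut S'} (hα : S'.subtype.comp α.toMonoidHom ∈ F.Hom S')
    (hco : (orderOf α).Coprime p) : α = 1 := by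
  subst h
  obtain ⟨k, hk⟩ := IsPGroup.iff_orderOf.1 haut ⟨α, Subgroup.subset_closure hα⟩
  replace hk : orderOf α = p ^ k :=
    (Subgroup.orderOf_coe (⟨α, Subgroup.subset_closure hα⟩ : F.autGroup S')).trans hk
  exact orderOf_eq_one_iff.1 (Nat.eq_one_of_dvd_coprimes (hco.pow_right k) dvd_rfl hk.dvd)

/-- For `p ≥ 5`, if `Aut_F(S)` is a `p`-group then the focal subgroup of `N_F(K_∞(S))` is proper. -/
theorem focal_lt (hp : 5 ≤ p) (hS : IsPGroup p S) (hS1 : S ≠ ⊥) (F : Cfsg.FusionSystem S) (hF : F.IsSaturated p)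
    (haut : IsPGroup p ↥(F.autGroup S))
    (N : Cfsg.FusionSystem (normalizerIn S (kSub S))) (hN : F.IsNormalizerSystem (kSub S) N) :
    N.focalSubgroup < S := by
  have hSS : normalizerIn S (kSub S) = S := normalizerIn_kSub
  have hS'p : IsPGroup p (normalizerIn S (kSub S)) := hS.to_le inf_le_left
  haveI : Finite (normalizerIn S (kSub S)) := Finite.of_injective _ (Subgroup.inclusion_injective (inf_le_left : (normalizerIn S (kSub S)) ≤ S))
  obtain ⟨L, _, ι, hfin, ⟨hι, hreal⟩, ⟨T, hT⟩, -⟩ :=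
    CfsgLib.Fusion.exists_model hS'p (isConstrained hS F hF N hN)
  haveI := hfin
  have hTne : (T : Subgroup L) ≠ ⊥ := by
    rw [hT]
    intro e
    refine hS1 (eq_bot_iff.2 fun x hx => ?_)
    have h1 : ι ⟨x, hSS.ge hx⟩ = 1 := Subgroup.mem_bot.1 (e ▸ ⟨_, rfl⟩)
    rw [← map_one ι] at h1
    exact Subgroup.mem_bot.2 (congrArg Subtype.val (hι h1))
  obtain ⟨M, hM, hMi⟩ := Cfsg.Agent.S1991.result hp T hTne fun g hg hco => by
    let e := MonoidHom.ofInjective hι
    have hgr : g ∈ Subgroup.normalizer (ι.range : Set L) := by rw [← hT]; exact hg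
    let α : MulAut (normalizerIn S (kSub S)) := (e.trans (Subgroup.normalizerMonoidHom ι.range ⟨g, hgr⟩)).trans e.symm
    have hα : ∀ x : (normalizerIn S (kSub S)), ι (α x) = g * ι x * g⁻¹ := fun x => MonoidHom.apply_ofInjective_symm hι _
    have hαN : (normalizerIn S (kSub S)).subtype.comp α.toMonoidHom ∈ N.Hom (normalizerIn S (kSub S)) :=
      (hreal (normalizerIn S (kSub S)) le_rfl ((normalizerIn S (kSub S)).subtype.comp α.toMonoidHom) fun x => (α x).2).2 ⟨g, hα⟩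
    rw [hN] at hαN
    have hpow : ∀ (n : ℕ) (x : (normalizerIn S (kSub S))), ι ((α ^ n) x) = g ^ n * ι x * (g ^ n)⁻¹ := by
      intro n
      induction n with
      | zero => intro x; simp
      | succ n ih =>
        intro x
        rw [pow_succ', MulAut.mul_apply, hα, ih, pow_succ']
        group
    have h1 : α = 1 := by
      refine autGroup_pGroup_elim hSS F haut hαN.1 (hco.coprime_dvd_left (orderOf_dvd_of_pow_eq_one ?_))
      refine MulEquiv.ext fun x => hι ?_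
      rw [hpow, pow_orderOf_eq_one, one_mul, inv_one, mul_one]
      rfl
    refine Subgroup.mem_centralizer_iff.2 fun y hy => ?_
    rw [hT] at hy
    obtain ⟨x, rfl⟩ := hy
    have h2 := hα x
    rw [h1] at h2
    exact eq_mul_inv_iff_mul_eq.1 h2
  have hnot := Cfsg.Agent.S1971.not_le_of_index T hM hMi
  refine lt_of_le_of_ne ((Subgroup.closure_le _).2 ?_) fun heq => hnot ?_
  · rintro _ ⟨P, φ, x, hφ, rfl⟩
    exact hSS.le (mul_mem (inv_mem ((N.le_of_mem hφ).1 x.2)) ((N.le_of_mem hφ).2 x))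
  have hle : N.focalSubgroup ≤ ((commutator L).comap ι).map (normalizerIn S (kSub S)).subtype := by
    refine (Subgroup.closure_le _).2 ?_
    rintro _ ⟨P, φ, x, hφ, rfl⟩
    obtain ⟨hP, hφS⟩ := N.le_of_mem hφ
    obtain ⟨g, hg⟩ := (hreal P hP φ hφS).1 hφ
    refine ⟨⟨x, hP x.2⟩⁻¹ * ⟨φ x, hφS x⟩, ?_, rfl⟩
    show ι _ ∈ commutator L
    rw [map_mul, map_inv, hg, commutator_def]
    have h1 := Subgroup.commutator_mem_commutator (Subgroup.mem_top (ι ⟨x, hP x.2⟩)⁻¹) (Subgroup.mem_top g)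
    simpa [commutatorElement_def, mul_assoc] using h1
  rw [hT]
  rintro _ ⟨x, rfl⟩
  rw [heq] at hle
  obtain ⟨y, hy, hyx⟩ := hle (hSS.le x.2)
  exact Subtype.ext hyx ▸ hy

end CfsgLib.KInfFusion
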