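import Cfsg.Agent.ConjFunctor.PairEngine

/-!
The two instances of the engine: transfer and strong fusion.
-/

set_option autoImplicit false
set_option linter.unusedSectionVars false
set_option linter.style.haveILetI false

namespace CfsgLib.ConjFunctor.PairEngine

open CfsgLib.ConjFunctor CfsgLib.GroupAlperin

variable {G : Type*} [Group G] {p : ℕ}

/-- Composite of moves in `M`, staying in `S`. -/
inductive GLink (S : Subgroup G) (M : Set G) : Set G → G → Prop
  | nil {A : Set G} {x : G} (hA : ∀ a ∈ A, a ∈ S) (h : ∀ a ∈ A, x * a * x⁻¹ = a) : GLink S M A x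
  | cons {A : Set G} {x y : G} (m : G) (hm : m ∈ M) (hA : ∀ a ∈ A, a ∈ S)
      (h : GLink S M ((fun a => m * a * m⁻¹) '' A) y) (he : ∀ a ∈ A, x * a * x⁻¹ = y * m * a * (y * m)⁻¹) :
      GLink S M A x

variable {S : Subgroup G} {M : Set G}

theorem GLink.congr {A : Set G} {x : G} (h : GLink S M A x) :
    ∀ {x' : G}, (∀ a ∈ A, x' * a * x'⁻¹ = x * a * x⁻¹) → GLink S M A x' := by
  cases h with
  | nil hA h => exact fun he => .nil hA fun a ha => (he a ha).trans (h a ha)
  | cons m hm hA h he => exact fun he' => .cons m hm hA h fun a ha => (he' a ha).trans (he a ha)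

theorem GLink.mono {A : Set G} {x : G} (h : GLink S M A x) : ∀ {B : Set G}, B ⊆ A → GLink S M B x := by
  induction h with
  | nil hA h => exact fun hB => .nil (fun a ha => hA a (hB ha)) fun a ha => h a (hB ha)
  | cons m hm hA _ he ih =>
    exact fun hB => .cons m hm (fun a ha => hA a (hB ha)) (ih (Set.image_mono hB)) fun a ha => he a (hB ha)

theorem GLink.trans {A : Set G} {x : G} (h : GLink S M A x) :
    ∀ {y : G}, GLink S M ((fun a => x * a * x⁻¹) '' A) y → GLink S M A (y * x) := by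
  induction h with
  | @nil A x hA h =>
    intro y hy
    refine (hy.mono (fun a ha => ⟨a, ha, h a ha⟩)).congr fun a ha => ?_
    rw [show y * x * a * (y * x)⁻¹ = y * (x * a * x⁻¹) * y⁻¹ by group, h a ha]
  | @cons A x z m hm hA _ he ih =>
    intro y hy
    refine .cons m hm hA (ih (y := y) (hy.mono ?_)) fun a ha => ?_
    · rintro _ ⟨_, ⟨a, ha, rfl⟩, rfl⟩
      exact ⟨a, ha, (he a ha).trans (by group)⟩
    · rw [show y * x * a * (y * x)⁻¹ = y * (x * a * x⁻¹) * y⁻¹ by group, he a ha]
      group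

theorem good_gLink (S : Subgroup G) (M : Set G) : Good S (GLink S M) :=
  ⟨fun _ _ hA h => .nil hA h, fun _ _ _ h h' => h.trans h', fun _ _ _ hB h => h.mono hB,
    fun _ _ _ h he => h.congr he⟩

theorem movesGood_gLink {D : Subgroup G} (hD : D ≤ S) {N : Subgroup G} (hN : ∀ m ∈ N, m ∈ M) :
    MovesGood (GLink S M) D N := fun A m hm hA hmA =>
  .cons (y := 1) m (hN m hm) (fun a ha => hD (hA a ha))
    (.nil (by rintro _ ⟨a, ha, rfl⟩; exact hD (hmA a ha)) fun _ _ => by group) fun _ _ => by group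

/-- A composite as a list of factors. -/
theorem GLink.exists_list {A : Set G} {x : G} (h : GLink S M A x) :
    ∃ (n : ℕ) (b : Fin n → G), (∀ i, (b i)⁻¹ ∈ M) ∧
      (∀ a ∈ A, x * a * x⁻¹ = ((List.ofFn b).prod)⁻¹ * a * (List.ofFn b).prod) ∧
      ∀ k : ℕ, k ≤ n → (fun a => (((List.ofFn b).take k).prod)⁻¹ * a * ((List.ofFn b).take k).prod) '' A ⊆ S := by
  induction h with
  | @nil A x hA h =>
    refine ⟨0, Fin.elim0, fun i => i.elim0, fun a ha => by simp [h a ha], fun k hk => ?_⟩
    rintro _ ⟨a, ha, rfl⟩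
    simpa using hA a ha
  | @cons A x y m hm hA _ he ih =>
    obtain ⟨n, b, hb, hlast, hin⟩ := ih
    refine ⟨n + 1, Fin.cons m⁻¹ b, fun i => ?_, fun a ha => ?_, fun k hk => ?_⟩
    · induction i using Fin.cases with
      | zero => simpa using hm
      | succ i => simpa using hb i
    · rw [he a ha, show y * m * a * (y * m)⁻¹ = y * (m * a * m⁻¹) * y⁻¹ by group, hlast _ ⟨a, ha, rfl⟩]
      simp [List.ofFn_succ, mul_assoc]
    · rintro _ ⟨a, ha, rfl⟩
      rcases k with _ | k
      · simpa using hA a ha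
      · have h1 := hin k (Nat.le_of_succ_le_succ hk) ⟨_, ⟨a, ha, rfl⟩, rfl⟩
        simpa [List.ofFn_succ, mul_assoc] using h1

/-- Products of good moves. -/
theorem good_prod {R : Set G → G → Prop} (hR : Good S R) {D : Subgroup G} (hDS : D ≤ S) {B : Set G}
    {n : ℕ} (b : Fin n → G)
    (hb : ∀ i, ∀ C : Set G, (∀ a ∈ C, a ∈ D) → (∀ a ∈ C, (b i)⁻¹ * a * b i ∈ D) → R C (b i)⁻¹)
    (hin : ∀ k : ℕ, k ≤ n → (fun a => (((List.ofFn b).take k).prod)⁻¹ * a * ((List.ofFn b).take k).prod) '' B ⊆ D) :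
    R B ((List.ofFn b).prod)⁻¹ := by
  have key : ∀ k : ℕ, k ≤ n → R B (((List.ofFn b).take k).prod)⁻¹ := by
    intro k
    induction k with
    | zero =>
      intro _
      refine hR.nil _ _ (fun a ha => hDS ?_) fun a _ => by simp
      simpa using hin 0 (Nat.zero_le _) ⟨a, ha, rfl⟩
    | succ k ih =>
      intro hk
      have hk' : k < (List.ofFn b).length := by simpa using hk
      have e : ((List.ofFn b).take (k + 1)).prod = ((List.ofFn b).take k).prod * b ⟨k, hk⟩ := by
        rw [List.prod_take_succ _ _ hk', List.getElem_ofFn]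
      rw [e, mul_inv_rev]
      refine hR.trans _ _ _ (ih (Nat.le_of_succ_le hk)) (hb _ _ ?_ ?_)
      · rintro _ ⟨a, ha, rfl⟩
        have h1 := hin k (Nat.le_of_succ_le hk) ⟨a, ha, rfl⟩
        simpa using h1
      · rintro _ ⟨a, ha, rfl⟩
        have h1 := hin (k + 1) hk ⟨a, ha, rfl⟩
        rw [e] at h1
        simpa [mul_assoc] using h1
  have h := key n le_rfl
  rwa [List.take_of_length_le (by simp)] at h

variable [Finite G] [Fact p.Prime]

/-- The transfer predicate: commutators lie in `M`. -/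
def TransGood (M : Subgroup G) (A : Set G) (x : G) : Prop := ∀ a ∈ A, a⁻¹ * (x * a * x⁻¹) ∈ M

theorem good_transGood (S M : Subgroup G) : Good S (TransGood M) where
  nil A x _ h a ha := by rw [h a ha, inv_mul_cancel]; exact M.one_mem
  trans A x y h h' a ha := by
    have h1 := M.mul_mem (h a ha) (h' _ ⟨a, ha, rfl⟩)
    simpa [mul_assoc] using h1
  mono A B x hB h a ha := h a (hB ha)
  congr A x x' h he a ha := by rw [he a ha]; exact h a ha

/-- The focal subgroup theorem inside a subgroup. -/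
theorem inf_commutator_le_of_moves {L D M : Subgroup G} (hDL : D ≤ L) (hD : IsPGroup p ↥D)
    (hidx : ¬ p ∣ D.relIndex L) (h : MovesGood (TransGood M) D L) : D ⊓ ⁅L, L⁆ ≤ M := by
  let T : Sylow p ↥L := (hD.of_equiv (Subgroup.subgroupOfEquivOfLe hDL).symm).toSylow hidx
  intro x hx
  have hxL : x ∈ L := hDL hx.1
  have h1 : (⟨x, hxL⟩ : L) ∈ (T : Subgroup L) ⊓ commutator ↥L := by
    refine ⟨hx.1, ?_⟩
    have h2 : x ∈ (commutator ↥L).map L.subtype := by
      rw [Subgroup.map_subtype_commutator]; exact hx.2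
    obtain ⟨y, hy, hyx⟩ := h2
    rwa [show (⟨x, hxL⟩ : L) = y from Subtype.ext hyx.symm]
  rw [CfsgLib.Transfer.inf_commutator_eq_focal] at h1
  refine (CfsgLib.Transfer.focalSubgroup_le_of_forall (H := (T : Subgroup L)) (M := M.comap L.subtype) ?_) h1
  intro y hy g hg
  have h3 := h {((y : L) : G)⁻¹} (g : G) g.2 (by rintro _ rfl; exact D.inv_mem hy) (by
    rintro _ rfl
    have h4 : ((g * y * g⁻¹ : L) : G)⁻¹ ∈ D := D.inv_mem hg
    simpa [mul_assoc] using h4) _ rfl
  rw [Subgroup.mem_comap]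
  simpa using h3

end CfsgLib.ConjFunctor.PairEngine
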