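import Cfsg.Agent.ConjFunctor.LocalGlobal
import Cfsg.Agent.ConjFunctor.PowerClosure
import Cfsg.Agent.ZJ.Fpf

/-!
Fusion along a pair (a functor containing the centre, a central functor): from the normalizers of the
subgroups between `Z(S)` and `S` to the whole group.
-/

set_option autoImplicit false
set_option linter.unusedSectionVars false
set_option linter.style.haveILetI false

namespace CfsgLib.ConjFunctor.PairEngine

open CfsgLib.ConjFunctor CfsgLib.GroupAlperin

variable {G : Type*} [Group G] {p : ℕ}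

theorem cj_centralizer (X : Subgroup G) (g : G) :
    cj (Subgroup.centralizer (X : Set G)) g = Subgroup.centralizer (cj X g : Set G) :=
  ((CfsgLib.ZJ.map_centralizer_equiv (MulAut.conj g⁻¹) X)).trans rfl

variable [Finite G] [Fact p.Prime]

/-- A `p`-group over a subgroup of index prime to `p` is that subgroup. -/
theorem le_of_sylow {A B H : Subgroup G} (hA : ¬ p ∣ A.relIndex H) (hAB : A ≤ B) (hB : IsPGroup p ↥B)
    (hBH : B ≤ H) : B ≤ A := by
  rw [← Subgroup.relIndex_eq_one]
  obtain ⟨n, hn⟩ := IsPGroup.iff_card.1 hB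
  obtain ⟨i, -, hi⟩ := (Nat.dvd_prime_pow (Fact.out : p.Prime)).1 (hn ▸ Subgroup.relIndex_dvd_card A B)
  rcases i with _ | i
  · rw [hi, pow_zero]
  · exfalso
    refine hA ((dvd_pow_self p (Nat.succ_ne_zero i)).trans ?_)
    rw [← hi, ← Subgroup.relIndex_mul_relIndex A B H hAB hBH]
    exact Dvd.intro _ rfl

/-- A Sylow subgroup meets a normal subgroup in a Sylow subgroup. -/
theorem not_dvd_relIndex_inf {D C N : Subgroup G} (hD : IsPGroup p ↥D) (hDN : D ≤ N)
    (hidx : ¬ p ∣ D.relIndex N) (hCN : C ≤ N) (hN : N ≤ Subgroup.normalizer (C : Set G)) :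
    ¬ p ∣ (D ⊓ C).relIndex C := by
  haveI : (C.subgroupOf N).Normal := Subgroup.normal_subgroupOf_of_le_normalizer hN
  let T : Sylow p ↥N := (hD.of_equiv (Subgroup.subgroupOfEquivOfLe hDN).symm).toSylow hidx
  obtain ⟨P, hP⟩ := PReduced.exists_sylow_inf T (C.subgroupOf N)
  have h4 := Sylow.not_dvd_index P
  rw [hP] at h4
  change ¬ p ∣ ((D.subgroupOf N ⊓ C.subgroupOf N).relIndex (C.subgroupOf N)) at h4
  rwa [show D.subgroupOf N ⊓ C.subgroupOf N = (D ⊓ C).subgroupOf N from (Subgroup.comap_inf _ _ _).symm,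
    Subgroup.relIndex_subgroupOf hCN] at h4

/-- The centre of `S`. -/
abbrev ZS (S : Subgroup G) : Subgroup G := S ⊓ Subgroup.centralizer (S : Set G)

/-- Conjugates in `S` of a subgroup containing a Sylow subgroup of `C(X)` contain `Z(S)`. -/
theorem center_le_cj (S : Sylow p G) {X Y : Subgroup G}
    (hsyl : ∀ E : Subgroup G, E ≤ Subgroup.centralizer (X : Set G) → IsPGroup p ↥E →
      Y ⊓ Subgroup.centralizer (X : Set G) ≤ E → E ≤ Y)
    {g : G} (hX : cj X g ≤ (S : Subgroup G)) (hY : cj Y g ≤ (S : Subgroup G)) :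
    ZS (S : Subgroup G) ≤ cj Y g := by
  intro z hz
  rw [mem_cj]
  set C := Subgroup.centralizer (X : Set G) with hC
  set B := cj (S : Subgroup G) g⁻¹ with hB
  have hzB : g * z * g⁻¹ ∈ B := by
    have h1 : z ∈ (S : Subgroup G) := hz.1
    rw [hB, mem_cj]; simpa [mul_assoc] using h1
  have hzC : g * z * g⁻¹ ∈ C := Subgroup.mem_centralizer_iff.2 fun x hx => by
    have h1 := Subgroup.mem_centralizer_iff.1 hz.2 _ (hX (conj_mem_cj (g := g) (show x ∈ X from hx)))
    calc x * (g * z * g⁻¹) = g * (g⁻¹ * x * g * z) * g⁻¹ := by group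
      _ = g * (z * (g⁻¹ * x * g)) * g⁻¹ := by rw [h1]
      _ = g * z * g⁻¹ * x := by group
  have hYB : Y ≤ B := fun y hy => by
    rw [hB, mem_cj]
    simpa [mul_assoc] using hY (conj_mem_cj (g := g) hy)
  exact hsyl (B ⊓ C) inf_le_right ((isPGroup_cj S.isPGroup' g⁻¹).to_le inf_le_left)
    (inf_le_inf_right C hYB) ⟨hzB, hzC⟩

/-- The fusion `a ↦ x a x⁻¹` on `A` is `R`-good: closure properties. -/
structure Good (S : Subgroup G) (R : Set G → G → Prop) : Prop where
  nil : ∀ (A : Set G) (x : G), (∀ a ∈ A, a ∈ S) → (∀ a ∈ A, x * a * x⁻¹ = a) → R A x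
  trans : ∀ (A : Set G) (x y : G), R A x → R ((fun a => x * a * x⁻¹) '' A) y → R A (y * x)
  mono : ∀ (A B : Set G) (x : G), B ⊆ A → R A x → R B x
  congr : ∀ (A : Set G) (x x' : G), R A x → (∀ a ∈ A, x' * a * x'⁻¹ = x * a * x⁻¹) → R A x'

/-- All moves inside `D` by elements of `M` are good. -/
def MovesGood (R : Set G → G → Prop) (D M : Subgroup G) : Prop :=
  ∀ (A : Set G) (m : G), m ∈ M → (∀ a ∈ A, a ∈ D) → (∀ a ∈ A, m * a * m⁻¹ ∈ D) → R A m

/-- **Engine**: from the subgroups between `Z(S)` and `S` to all fusion in `S`. -/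
theorem engine {W V : Subgroup G → Subgroup G} (hW : Cfsg.IsConjugacyFunctor p W) (S : Sylow p G)
    (hSne : (S : Subgroup G) ≠ ⊥)
    (hWZ : ∀ H : Subgroup G, IsPGroup p ↥H → H ⊓ Subgroup.centralizer (H : Set G) ≤ W H)
    (hVmono : ∀ H K : Subgroup G, IsPGroup p ↥H → IsPGroup p ↥K → H ≠ ⊥ → K ≠ ⊥ →
      H ⊓ Subgroup.centralizer (H : Set G) ≤ K ⊓ Subgroup.centralizer (K : Set G) → V H ≤ V K)
    {R : Set G → G → Prop} (hR : Good (S : Subgroup G) R)
    (hRW : MovesGood R (S : Subgroup G) (Subgroup.normalizer (W (S : Subgroup G) : Set G)))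
    (hRV : MovesGood R (S : Subgroup G) (Subgroup.centralizer (V (S : Subgroup G) : Set G)))
    (hloc : ∀ T : Subgroup G, ZS (S : Subgroup G) ≤ T → T ≤ (S : Subgroup G) →
      ¬ p ∣ ((S : Subgroup G) ⊓ Subgroup.normalizer (T : Set G)).relIndex (Subgroup.normalizer (T : Set G)) →
      MovesGood R ((S : Subgroup G) ⊓ Subgroup.normalizer (T : Set G)) (Subgroup.normalizer (T : Set G) ⊓
        Subgroup.normalizer (W ((S : Subgroup G) ⊓ Subgroup.normalizer (T : Set G)) : Set G)) →
      MovesGood R ((S : Subgroup G) ⊓ Subgroup.normalizer (T : Set G)) (Subgroup.normalizer (T : Set G) ⊓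
        Subgroup.centralizer (V ((S : Subgroup G) ⊓ Subgroup.normalizer (T : Set G)) : Set G)) →
      MovesGood R ((S : Subgroup G) ⊓ Subgroup.normalizer (T : Set G)) (Subgroup.normalizer (T : Set G))) :
    MovesGood R (S : Subgroup G) ⊤ := by
  set Z := ZS (S : Subgroup G) with hZ
  have hZS : Z ≤ (S : Subgroup G) := inf_le_left
  -- fusion of subgroups of co-order `n`, and the local statements of co-order `n`
  suffices key : ∀ n,
      (∀ T : Subgroup G, Z ≤ T → T ≤ (S : Subgroup G) → Ext p (S : Subgroup G) T →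
        Nat.card ↥(S : Subgroup G) - Nat.card ↥((S : Subgroup G) ⊓ Subgroup.normalizer (T : Set G)) = n →
        MovesGood R ((S : Subgroup G) ⊓ Subgroup.normalizer (T : Set G)) (Subgroup.normalizer (T : Set G))) ∧
      (∀ X : Subgroup G, ∀ g : G, X ≤ (S : Subgroup G) → cj X g ≤ (S : Subgroup G) →
        Nat.card ↥(S : Subgroup G) - Nat.card ↥X = n → R (X : Set G) g⁻¹) by
    intro A x _ hA hxA
    have hX : Subgroup.closure A ≤ (S : Subgroup G) := (Subgroup.closure_le _).mpr hA
    have hg : cj (Subgroup.closure A) x⁻¹ ≤ (S : Subgroup G) := by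
      rw [cj, MonoidHom.map_closure, Subgroup.closure_le]
      rintro _ ⟨a, ha, rfl⟩
      have h1 : x * a * x⁻¹ ∈ (S : Subgroup G) := hxA a ha
      show x⁻¹⁻¹ * a * x⁻¹⁻¹⁻¹ ∈ (S : Subgroup G)
      rwa [inv_inv]
    have := hR.mono _ A _ Subgroup.subset_closure ((key _).2 _ x⁻¹ hX hg rfl)
    rwa [inv_inv] at this
  intro n
  induction n using Nat.strong_induction_on with
  | _ n ih =>
  have hchainlt : ∀ (X : Subgroup G) (g : G), X ≤ (S : Subgroup G) → cj X g ≤ (S : Subgroup G) →
      Nat.card ↥(S : Subgroup G) - Nat.card ↥X < n → R (X : Set G) g⁻¹ :=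
    fun X g hX hg h => (ih _ h).2 X g hX hg rfl
  have hlocn : ∀ T : Subgroup G, Z ≤ T → T ≤ (S : Subgroup G) → Ext p (S : Subgroup G) T →
      Nat.card ↥(S : Subgroup G) - Nat.card ↥((S : Subgroup G) ⊓ Subgroup.normalizer (T : Set G)) = n →
      MovesGood R ((S : Subgroup G) ⊓ Subgroup.normalizer (T : Set G)) (Subgroup.normalizer (T : Set G)) := by
    intro T hZT hT hext hn
    set D := (S : Subgroup G) ⊓ Subgroup.normalizer (T : Set G) with hD
    have hDp : IsPGroup p ↥D := S.isPGroup'.to_le inf_le_left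
    have hTD : T ≤ D := le_inf hT Subgroup.le_normalizer
    have hZD : Z ≤ D ⊓ Subgroup.centralizer (D : Set G) :=
      le_inf (hZT.trans hTD) (inf_le_right.trans (Subgroup.centralizer_le fun _ h => h.1))
    have hDne : D ≠ ⊥ := fun e => by
      have hZne : Z ≠ ⊥ := by
        intro h0
        haveI : Nontrivial ↥(S : Subgroup G) := (Subgroup.nontrivial_iff_ne_bot _).2 hSne
        haveI := S.isPGroup'.center_nontrivial
        obtain ⟨z, hz⟩ := exists_ne (1 : Subgroup.center ↥(S : Subgroup G))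
        refine hz (Subtype.ext (Subtype.ext ?_))
        have : ((z : ↥(S : Subgroup G)) : G) ∈ Z := ⟨(z : ↥(S : Subgroup G)).2,
          Subgroup.mem_centralizer_iff.2 fun s hs => congrArg Subtype.val (Subgroup.mem_center_iff.1 z.2 ⟨s, hs⟩)⟩
        rwa [h0, Subgroup.mem_bot] at this
      exact hZne (le_bot_iff.1 (e ▸ hZD.trans inf_le_left))
    refine hloc T hZT hT hext ?_ ?_
    · -- moves in `N(W D)`
      intro B m hm hB hmB
      by_cases hDS : D = (S : Subgroup G)
      · refine hRW B m ?_ (fun b hb => (hB b hb).1) fun b hb => (hmB b hb).1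
        rw [← hDS]; exact hm.2
      have hXS : W D ≤ (S : Subgroup G) := (conj_functor_le hW hDp).trans inf_le_left
      set D' := (S : Subgroup G) ⊓ Subgroup.normalizer (W D : Set G) with hD'
      have hDD' : D ≤ D' :=
        le_inf inf_le_left (Subgroup.le_normalizer.trans (normalizer_le_normalizer_functor hW hDp))
      have hlt : Nat.card ↥D < Nat.card ↥D' := (card_inf_normalizer_lt S inf_le_left hDS).trans_le
        (Subgroup.card_le_of_le (inf_le_inf_left _ (normalizer_le_normalizer_functor hW hDp)))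
      have hD'S : Nat.card ↥D' ≤ Nat.card ↥(S : Subgroup G) := Subgroup.card_le_of_le inf_le_left
      obtain ⟨g, hgext, hgS⟩ := exists_ext_conj S (W D)
      have hgS' : cj D' g ≤ (S : Subgroup G) ⊓ Subgroup.normalizer (cj (W D) g : Set G) :=
        le_inf hgS (by rw [← cj_normalizer]; exact cj_mono inf_le_right g)
      have hUS : cj (W D) g ≤ (S : Subgroup G) :=
        (cj_mono (le_inf hXS Subgroup.le_normalizer) g).trans hgS
      have hZU : Z ≤ cj (W D) g := by
        refine center_le_cj S (X := D) (fun E hE hEp hle => ?_) ((cj_mono hDD' g).trans hgS) hUS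
        have hEN : E ≤ Subgroup.normalizer (D : Set G) := hE.trans (fun c hc =>
          Subgroup.mem_normalizer_fintype fun d hd => by
            rw [← Subgroup.mem_centralizer_iff.1 hc d hd, mul_inv_cancel_right]; exact hd)
        have hp : IsPGroup p ↥(E ⊔ D : Subgroup G) := hEp.to_sup_of_normal_right' hDp hEN
        have hle' := le_of_sylow hext le_sup_right hp
          (sup_le (hE.trans ((Subgroup.centralizer_le hTD).trans fun c hc =>
            Subgroup.mem_normalizer_fintype fun d hd => by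
              rw [← Subgroup.mem_centralizer_iff.1 hc d hd, mul_inv_cancel_right]; exact hd)) inf_le_right)
        exact fun e he => hWZ D hDp ⟨hle' ((le_sup_left : E ≤ E ⊔ D) he), hE he⟩
      have h1 : R B g⁻¹ := hR.mono _ B _ (fun b hb => hDD' (hB b hb))
        (hchainlt D' g inf_le_left hgS (by omega))
      have h2 : R ((fun b => g⁻¹ * b * g⁻¹⁻¹) '' B) (g⁻¹ * m * g) := by
        have hc : Nat.card ↥D' ≤
            Nat.card ↥((S : Subgroup G) ⊓ Subgroup.normalizer (cj (W D) g : Set G)) := by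
          rw [← card_cj D' g]; exact Subgroup.card_le_of_le hgS'
        refine (ih _ (by omega)).1 (cj (W D) g) hZU hUS hgext rfl _ _ ?_ ?_ ?_
        · rw [← cj_normalizer, mem_cj]
          simpa [mul_assoc] using hm.2
        · rintro _ ⟨b, hb, rfl⟩
          refine hgS' ?_
          simpa using conj_mem_cj (g := g) (hDD' (hB b hb))
        · rintro _ ⟨b, hb, rfl⟩
          refine hgS' ?_
          have := conj_mem_cj (g := g) (hDD' (hmB b hb))
          simpa [mul_assoc] using this
      have h3 : R (cj D' g : Set G) g := by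
        have h := hchainlt (cj D' g) g⁻¹ hgS (by rw [cj_inv_cancel]; exact inf_le_left) (by rw [card_cj]; omega)
        rwa [inv_inv] at h
      have h12 := hR.trans _ _ _ h1 h2
      refine hR.congr _ _ m (hR.trans _ _ g h12 (hR.mono _ _ _ ?_ h3)) fun b _ => by group
      rintro _ ⟨b, hb, rfl⟩
      have := conj_mem_cj (g := g) (hDD' (hmB b hb))
      simpa [mul_assoc] using this
    · -- moves in `C(V D)`
      intro B m hm hB hmB
      refine hRV B m ?_ (fun b hb => (hB b hb).1) fun b hb => (hmB b hb).1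
      exact Subgroup.centralizer_le (hVmono _ _ S.isPGroup' hDp hSne hDne hZD) hm.2
  refine ⟨hlocn, ?_⟩
  intro X g hX hg hn
  have key : ∀ Y v, CChain (S : Subgroup G) {U : Subgroup G | U ≤ (S : Subgroup G) ∧ Ext p (S : Subgroup G) U} Y v →
      Nat.card ↥X ≤ Nat.card ↥Y → R (Y : Set G) v⁻¹ := by
    intro Y v hc
    induction hc with
    | nil h => exact fun _ => hR.nil _ _ (fun a ha => h ha) fun a _ => by group
    | @cons Y U u v hU hu hYU _ ihc =>
      intro hcard
      have hXU : Nat.card ↥X ≤ Nat.card ↥U := hcard.trans (Subgroup.card_le_of_le hYU)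
      have h1 : R (U : Set G) u⁻¹ := by
        set N := Subgroup.normalizer (U : Set G) with hN
        set C := Subgroup.centralizer (U : Set G) with hC
        have hCN : C ≤ N := fun c hc => Subgroup.mem_normalizer_fintype fun d hd => by
          rw [← Subgroup.mem_centralizer_iff.1 hc d hd, mul_inv_cancel_right]; exact hd
        have hNC : N ≤ Subgroup.normalizer (C : Set G) := PReduced.normalizer_le_normalizer_centralizer U
        set T₁ := (S : Subgroup G) ⊓ C with hT₁
        have hT₁' : (S : Subgroup G) ⊓ N ⊓ C = T₁ := by rw [inf_assoc, inf_eq_right.2 hCN]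
        have hfr := le_sup_inf_normalizer (K := N) (D := (S : Subgroup G) ⊓ N) (C := C) inf_le_right
          (S.isPGroup'.to_le inf_le_left) hU.2 hCN hNC
        rw [hT₁'] at hfr
        set L := N ⊓ Subgroup.normalizer (T₁ : Set G) with hL
        obtain ⟨l, hl, c, hc, hlc⟩ : ∃ l ∈ L, ∃ c ∈ C, l * c = u⁻¹ := by
          have h4 : u⁻¹ ∈ ((L ⊔ C : Subgroup G) : Set G) := by rw [sup_comm]; exact hfr (inv_mem hu)
          rw [Subgroup.coe_mul_of_left_le_normalizer_right L C (inf_le_left.trans hNC)] at h4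
          obtain ⟨l, hl, c, hc, hlc⟩ := Set.mem_mul.1 h4
          exact ⟨l, hl, c, hc, hlc⟩
        refine hR.congr _ l u⁻¹ ?_ fun a ha => by
          rw [← hlc, show l * c * a * (l * c)⁻¹ = l * (c * a * c⁻¹) * l⁻¹ by group,
            ← Subgroup.mem_centralizer_iff.1 hc a ha, mul_inv_cancel_right]
        set U₁ := U ⊔ T₁ with hU₁
        have hU₁S : U₁ ≤ (S : Subgroup G) := sup_le hU.1 inf_le_left
        have hLU : L ≤ Subgroup.normalizer (U₁ : Set G) := fun g hg => by
          rw [Subgroup.mem_normalizer_iff_map_conj_eq, hU₁, Subgroup.map_sup,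
            Subgroup.mem_normalizer_iff_map_conj_eq.1 hg.1, Subgroup.mem_normalizer_iff_map_conj_eq.1 hg.2]
        have hidx : ¬ p ∣ T₁.relIndex C :=
          hT₁' ▸ not_dvd_relIndex_inf (S.isPGroup'.to_le inf_le_left) inf_le_right hU.2 hCN hNC
        have hsyl : ∀ E : Subgroup G, E ≤ C → IsPGroup p ↥E → U₁ ⊓ C ≤ E → E ≤ U₁ := fun E hE hEp hle =>
          (le_of_sylow hidx ((le_inf le_sup_right inf_le_right).trans hle) hEp hE).trans le_sup_right
        rcases eq_or_lt_of_le (le_sup_left : U ≤ U₁) with e | e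
        · -- `U` itself contains the centre
          have hZU : Z ≤ U := by
            have := center_le_cj S (g := 1) hsyl (by rw [cj_one]; exact hU.1) (by rw [cj_one]; exact hU₁S)
            rwa [cj_one, show U₁ = U from e.symm] at this
          have hUD : U ≤ (S : Subgroup G) ⊓ N := le_inf hU.1 Subgroup.le_normalizer
          have hin : ∀ a ∈ U, l * a * l⁻¹ ∈ (S : Subgroup G) ⊓ N := fun a ha =>
            hUD ((Subgroup.mem_normalizer_iff.1 hl.1 a).1 ha)
          have hle : Nat.card ↥(S : Subgroup G) - Nat.card ↥((S : Subgroup G) ⊓ N) ≤ n := by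
            have := Subgroup.card_le_of_le hUD
            omega
          rcases hle.lt_or_eq with h | h
          · exact (ih _ h).1 U hZU hU.1 hU.2 rfl _ _ hl.1 (fun a ha => hUD ha) hin
          · exact hlocn U hZU hU.1 hU.2 h _ _ hl.1 (fun a ha => hUD ha) hin
        -- otherwise move to an extremal conjugate of `U₁`
        set D₁ := (S : Subgroup G) ⊓ Subgroup.normalizer (U₁ : Set G) with hD₁
        have hUD : U₁ ≤ D₁ := le_inf hU₁S Subgroup.le_normalizer
        have hlt : Nat.card ↥X < Nat.card ↥D₁ :=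
          (hXU.trans_lt (card_lt_of_lt e)).trans_le (Subgroup.card_le_of_le hUD)
        have hD₁S : Nat.card ↥D₁ ≤ Nat.card ↥(S : Subgroup G) := Subgroup.card_le_of_le inf_le_left
        obtain ⟨k, hkext, hkS⟩ := exists_ext_conj S U₁
        have hkS' : cj D₁ k ≤ (S : Subgroup G) ⊓ Subgroup.normalizer (cj U₁ k : Set G) :=
          le_inf hkS (by rw [← cj_normalizer]; exact cj_mono inf_le_right k)
        have hVS : cj U₁ k ≤ (S : Subgroup G) := (cj_mono hUD k).trans hkS
        have hZV : Z ≤ cj U₁ k := center_le_cj S hsyl ((cj_mono le_sup_left k).trans hVS) hVS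
        have h1 : R (U : Set G) k⁻¹ := hR.mono _ _ _ (fun a ha => hUD ((le_sup_left : U ≤ U₁) ha))
          (hchainlt D₁ k inf_le_left hkS (by omega))
        have hlU : ∀ a ∈ U, l * a * l⁻¹ ∈ D₁ := fun a ha =>
          hUD ((Subgroup.mem_normalizer_iff.1 (hLU hl) a).1 ((le_sup_left : U ≤ U₁) ha))
        have h2 : R ((fun a => k⁻¹ * a * k⁻¹⁻¹) '' (U : Set G)) (k⁻¹ * l * k) := by
          have hc : Nat.card ↥D₁ ≤
              Nat.card ↥((S : Subgroup G) ⊓ Subgroup.normalizer (cj U₁ k : Set G)) := by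
            rw [← card_cj D₁ k]; exact Subgroup.card_le_of_le hkS'
          refine (ih _ (by omega)).1 (cj U₁ k) hZV hVS hkext rfl _ _ ?_ ?_ ?_
          · rw [← cj_normalizer, mem_cj]
            simpa [mul_assoc] using hLU hl
          · rintro _ ⟨b, hb, rfl⟩
            refine hkS' ?_
            simpa using conj_mem_cj (g := k) (hUD ((le_sup_left : U ≤ U₁) hb))
          · rintro _ ⟨b, hb, rfl⟩
            refine hkS' ?_
            have := conj_mem_cj (g := k) (hlU b hb)
            simpa [mul_assoc] using this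
        have h3 : R (cj D₁ k : Set G) k := by
          have h := hchainlt (cj D₁ k) k⁻¹ hkS (by rw [cj_inv_cancel]; exact inf_le_left) (by rw [card_cj]; omega)
          rwa [inv_inv] at h
        have h12 := hR.trans _ _ _ h1 h2
        refine hR.congr _ _ l (hR.trans _ _ k h12 (hR.mono _ _ _ ?_ h3)) fun b _ => by group
        rintro _ ⟨b, hb, rfl⟩
        have := conj_mem_cj (g := k) (hlU b hb)
        simpa [mul_assoc] using this
      rw [mul_inv_rev]
      refine hR.trans _ _ _ (hR.mono _ _ _ hYU h1) (hR.mono _ _ _ ?_ (ihc (by rwa [card_cj])))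
      rintro _ ⟨a, ha, rfl⟩
      simpa using conj_mem_cj (g := u) (show a ∈ Y from ha)
  exact key X g (exists_cchain S (ext_family S) X g hX hg) le_rfl

end CfsgLib.ConjFunctor.PairEngine
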